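import Mathlib

/-!
# S5749, S5750, box P2: alternating maps on tensor products of 2-dimensional modules (helper6)

Characteristic 2. `NS σ d` : no non-zero submodules of dimension `< d`; `AltZ ρ d` : every equivariant alternating bilinear
map from `ρ` to a module with `NS _ d` vanishes; `AltZ.step` : `AltZ ρ d → AltZ (X ⊗ ρ) (2 d)`.
-/

set_option autoImplicit false
set_option linter.unusedSectionVars false

namespace Cfsg.Agent.R2.H6P2

open Module Matrix

universe u v w x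

variable {k : Type u} [Field k] {G : Type w} [Group G]

/-- stable subspaces -/
def Stb {V : Type*} [AddCommGroup V] [Module k V] (σ : Representation k G V) (W : Submodule k V) : Prop :=
  ∀ g, ∀ w ∈ W, σ g w ∈ W

/-- no non-zero submodules of dimension `< d` -/
def NS {V : Type*} [AddCommGroup V] [Module k V] (σ : Representation k G V) (d : ℕ) : Prop :=
  ∀ W : Submodule k V, Stb σ W → finrank k W < d → W = ⊥

theorem NS.mono {V : Type*} [AddCommGroup V] [Module k V] {σ : Representation k G V} {d d' : ℕ} (h : NS σ d)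
    (hd : d' ≤ d) : NS σ d' := fun W hW h1 => h W hW (h1.trans_le hd)

/-- every equivariant alternating bilinear map to a module without small submodules vanishes -/
def AltZ {R : Type x} [AddCommGroup R] [Module k R] (ρ : Representation k G R) (d : ℕ) : Prop :=
  ∀ (V : Type v) [AddCommGroup V] [Module k V] [FiniteDimensional k V] (σ : Representation k G V), NS σ d →
    ∀ β : R →ₗ[k] R →ₗ[k] V, (∀ r, β r r = 0) → (∀ g r r', β (ρ g r) (ρ g r') = σ g (β r r')) → ∀ r r', β r r' = 0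

/-- `τ` is a quotient of `X ⊗ ρ` -/
structure Tens (X : G → Matrix (Fin 2) (Fin 2) k) {R : Type*} [AddCommGroup R] [Module k R]
    (ρ : Representation k G R) {E : Type*} [AddCommGroup E] [Module k E] (τ : Representation k G E)
    (j₀ j₁ : R →ₗ[k] E) : Prop where
  det : ∀ g, X g 0 0 * X g 1 1 - X g 0 1 * X g 1 0 = 1
  one : X 1 = 1
  mul : ∀ g h, X (g * h) = X g * X h
  act₀ : ∀ g r, τ g (j₀ r) = X g 0 0 • j₀ (ρ g r) + X g 1 0 • j₁ (ρ g r)
  act₁ : ∀ g r, τ g (j₁ r) = X g 0 1 • j₀ (ρ g r) + X g 1 1 • j₁ (ρ g r)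
  span : ∀ e, ∃ r₀ r₁, e = j₀ r₀ + j₁ r₁

section twist

variable {V : Type v} [AddCommGroup V] [Module k V] (σ : Representation k G V) (X : G → Matrix (Fin 2) (Fin 2) k)

/-- the action on `Hom (X^(2), V)` -/
noncomputable def twMap (g : G) : (Fin 2 → V) →ₗ[k] (Fin 2 → V) where
  toFun f := ![X g 1 1 ^ 2 • σ g (f 0) + X g 1 0 ^ 2 • σ g (f 1), X g 0 1 ^ 2 • σ g (f 0) + X g 0 0 ^ 2 • σ g (f 1)]
  map_add' f f' := by
    funext i
    fin_cases i
    · show X g 1 1 ^ 2 • σ g (f 0 + f' 0) + X g 1 0 ^ 2 • σ g (f 1 + f' 1) =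
        (X g 1 1 ^ 2 • σ g (f 0) + X g 1 0 ^ 2 • σ g (f 1)) + (X g 1 1 ^ 2 • σ g (f' 0) + X g 1 0 ^ 2 • σ g (f' 1))
      rw [map_add, map_add, smul_add, smul_add]
      abel
    · show X g 0 1 ^ 2 • σ g (f 0 + f' 0) + X g 0 0 ^ 2 • σ g (f 1 + f' 1) =
        (X g 0 1 ^ 2 • σ g (f 0) + X g 0 0 ^ 2 • σ g (f 1)) + (X g 0 1 ^ 2 • σ g (f' 0) + X g 0 0 ^ 2 • σ g (f' 1))
      rw [map_add, map_add, smul_add, smul_add]
      abel
  map_smul' c f := by
    funext i
    fin_cases i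
    · show X g 1 1 ^ 2 • σ g (c • f 0) + X g 1 0 ^ 2 • σ g (c • f 1) =
        c • (X g 1 1 ^ 2 • σ g (f 0) + X g 1 0 ^ 2 • σ g (f 1))
      rw [map_smul, map_smul, smul_add, smul_comm c, smul_comm c]
    · show X g 0 1 ^ 2 • σ g (c • f 0) + X g 0 0 ^ 2 • σ g (c • f 1) =
        c • (X g 0 1 ^ 2 • σ g (f 0) + X g 0 0 ^ 2 • σ g (f 1))
      rw [map_smul, map_smul, smul_add, smul_comm c, smul_comm c]

theorem twMap_zero (g : G) (f : Fin 2 → V) :
    twMap σ X g f 0 = X g 1 1 ^ 2 • σ g (f 0) + X g 1 0 ^ 2 • σ g (f 1) := rfl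

theorem twMap_one (g : G) (f : Fin 2 → V) :
    twMap σ X g f 1 = X g 0 1 ^ 2 • σ g (f 0) + X g 0 0 ^ 2 • σ g (f 1) := rfl

/-- the representation on `Hom (X^(2), V)`, characteristic 2 -/
noncomputable def twRep [CharP k 2] (h1 : X 1 = 1) (h2 : ∀ g h, X (g * h) = X g * X h) :
    Representation k G (Fin 2 → V) where
  toFun := twMap σ X
  map_one' := by
    refine LinearMap.ext fun f => funext fun i => ?_
    fin_cases i
    · show X 1 1 1 ^ 2 • σ 1 (f 0) + X 1 1 0 ^ 2 • σ 1 (f 1) = f 0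
      rw [h1, map_one]
      simp
    · show X 1 0 1 ^ 2 • σ 1 (f 0) + X 1 0 0 ^ 2 • σ 1 (f 1) = f 1
      rw [h1, map_one]
      simp
  map_mul' g h := by
    have hsq : ∀ a b : k, (a + b) ^ 2 = a ^ 2 + b ^ 2 := fun a b => by
      have h2 : (2 : k) = 0 := CharTwo.two_eq_zero
      linear_combination (a * b) * h2
    have e : ∀ i j, X (g * h) i j = X g i 0 * X h 0 j + X g i 1 * X h 1 j := fun i j => by
      rw [h2, Matrix.mul_apply, Fin.sum_univ_two]
    refine LinearMap.ext fun f => funext fun i => ?_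
    fin_cases i
    · show X (g * h) 1 1 ^ 2 • σ (g * h) (f 0) + X (g * h) 1 0 ^ 2 • σ (g * h) (f 1) =
        X g 1 1 ^ 2 • σ g (X h 1 1 ^ 2 • σ h (f 0) + X h 1 0 ^ 2 • σ h (f 1)) +
        X g 1 0 ^ 2 • σ g (X h 0 1 ^ 2 • σ h (f 0) + X h 0 0 ^ 2 • σ h (f 1))
      rw [e, e, hsq, hsq, map_mul, Module.End.mul_apply, Module.End.mul_apply, map_add, map_add, map_smul, map_smul,
        map_smul, map_smul]
      module
    · show X (g * h) 0 1 ^ 2 • σ (g * h) (f 0) + X (g * h) 0 0 ^ 2 • σ (g * h) (f 1) =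
        X g 0 1 ^ 2 • σ g (X h 1 1 ^ 2 • σ h (f 0) + X h 1 0 ^ 2 • σ h (f 1)) +
        X g 0 0 ^ 2 • σ g (X h 0 1 ^ 2 • σ h (f 0) + X h 0 0 ^ 2 • σ h (f 1))
      rw [e, e, hsq, hsq, map_mul, Module.End.mul_apply, Module.End.mul_apply, map_add, map_add, map_smul, map_smul,
        map_smul, map_smul]
      module

theorem twRep_apply [CharP k 2] (h1 : X 1 = 1) (h2 : ∀ g h, X (g * h) = X g * X h) (g : G) (f : Fin 2 → V) :
    twRep σ X h1 h2 g f = twMap σ X g f := rfl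

end twist

section step

variable [CharP k 2] {X : G → Matrix (Fin 2) (Fin 2) k} {R : Type x} [AddCommGroup R] [Module k R]
  [FiniteDimensional k R] {ρ : Representation k G R} {E : Type*} [AddCommGroup E] [Module k E]
  {τ : Representation k G E} {j₀ j₁ : R →ₗ[k] E}

omit [CharP k 2] in
theorem det_sq [CharP k 2] {a b c d : k} (h : a * d - b * c = 1) : a ^ 2 * d ^ 2 + b ^ 2 * c ^ 2 = 1 := by
  have h2 : (2 : k) = 0 := CharTwo.two_eq_zero
  linear_combination (a * d - b * c + 1) * h + (a * b * c * d) * h2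

theorem NS.tw {V : Type v} [AddCommGroup V] [Module k V] [FiniteDimensional k V] {σ : Representation k G V}
    {d : ℕ} (h : NS σ (2 * d)) (h1 : X 1 = 1) (h2 : ∀ g h, X (g * h) = X g * X h)
    (hd : ∀ g, X g 0 0 * X g 1 1 - X g 0 1 * X g 1 0 = 1) : NS (twRep σ X h1 h2) d := by
  have h20 : (2 : k) = 0 := CharTwo.two_eq_zero
  intro P hP hPd
  set W : Submodule k V := P.map (LinearMap.proj 0) ⊔ P.map (LinearMap.proj 1) with hW
  have hWd : finrank k W < 2 * d := by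
    have e1 := Submodule.finrank_add_le_finrank_add_finrank (P.map (LinearMap.proj (R := k) (φ := fun _ => V) (0 : Fin 2)))
      (P.map (LinearMap.proj (R := k) (φ := fun _ => V) (1 : Fin 2)))
    have e2 := Submodule.finrank_map_le (LinearMap.proj (R := k) (φ := fun _ => V) (0 : Fin 2)) P
    have e3 := Submodule.finrank_map_le (LinearMap.proj (R := k) (φ := fun _ => V) (1 : Fin 2)) P
    have e4 : finrank k W ≤ _ := e1
    omega
  have h0 : ∀ f ∈ P, f 0 ∈ W := fun f hf => Submodule.mem_sup_left ⟨f, hf, rfl⟩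
  have h1' : ∀ f ∈ P, f 1 ∈ W := fun f hf => Submodule.mem_sup_right ⟨f, hf, rfl⟩
  have hWs : Stb σ W := by
    intro g w hw
    have key : ∀ f ∈ P, σ g (f 0) ∈ W ∧ σ g (f 1) ∈ W := by
      intro f hf
      have hf' := hP g f hf
      rw [twRep_apply] at hf'
      have e0 := h0 _ hf'
      have e1 := h1' _ hf'
      rw [twMap_zero] at e0
      rw [twMap_one] at e1
      have hdd := det_sq (hd g)
      constructor
      · have e2 : σ g (f 0) = X g 0 0 ^ 2 • (X g 1 1 ^ 2 • σ g (f 0) + X g 1 0 ^ 2 • σ g (f 1)) +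
            X g 1 0 ^ 2 • (X g 0 1 ^ 2 • σ g (f 0) + X g 0 0 ^ 2 • σ g (f 1)) := by
          have e3 : (X g 0 0 ^ 2 * X g 1 0 ^ 2 * 2) = (0 : k) := by rw [h20, mul_zero]
          calc σ g (f 0) = (X g 0 0 ^ 2 * X g 1 1 ^ 2 + X g 0 1 ^ 2 * X g 1 0 ^ 2) • σ g (f 0) +
                (X g 0 0 ^ 2 * X g 1 0 ^ 2 * 2) • σ g (f 1) := by rw [hdd, one_smul, e3, zero_smul, add_zero]
            _ = _ := by module
        rw [e2]
        exact W.add_mem (W.smul_mem _ e0) (W.smul_mem _ e1)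
      · have e2 : σ g (f 1) = X g 0 1 ^ 2 • (X g 1 1 ^ 2 • σ g (f 0) + X g 1 0 ^ 2 • σ g (f 1)) +
            X g 1 1 ^ 2 • (X g 0 1 ^ 2 • σ g (f 0) + X g 0 0 ^ 2 • σ g (f 1)) := by
          have e3 : (X g 0 1 ^ 2 * X g 1 1 ^ 2 * 2) = (0 : k) := by rw [h20, mul_zero]
          calc σ g (f 1) = (X g 0 0 ^ 2 * X g 1 1 ^ 2 + X g 0 1 ^ 2 * X g 1 0 ^ 2) • σ g (f 1) +
                (X g 0 1 ^ 2 * X g 1 1 ^ 2 * 2) • σ g (f 0) := by rw [hdd, one_smul, e3, zero_smul, add_zero]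
            _ = _ := by module
        rw [e2]
        exact W.add_mem (W.smul_mem _ e0) (W.smul_mem _ e1)
    obtain ⟨a, ha, b, hb, rfl⟩ := Submodule.mem_sup.1 hw
    obtain ⟨f, hf, rfl⟩ := ha
    obtain ⟨f', hf', rfl⟩ := hb
    rw [map_add]
    exact W.add_mem (key f hf).1 (key f' hf').2
  have hW0 := h W hWs hWd
  rw [eq_bot_iff]
  intro f hf
  rw [Submodule.mem_bot]
  funext i
  fin_cases i
  · have e1 := h0 f hf
    rw [hW0, Submodule.mem_bot] at e1
    exact e1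
  · have e1 := h1' f hf
    rw [hW0, Submodule.mem_bot] at e1
    exact e1

/-- **the induction step** -/
theorem AltZ.step {d : ℕ} (hρ : AltZ.{u, v, w, x} ρ d) (hd : finrank k R ≤ d) (hd1 : 1 ≤ d)
    (hT : Tens X ρ τ j₀ j₁) : AltZ.{u, v, w} τ (2 * d) := by
  intro V _ _ _ σ hσ β hβ hβg
  have h20 : (2 : k) = 0 := CharTwo.two_eq_zero
  have hneg : ∀ v : V, -v = v := fun v => by
    have e : v + v = 0 := by rw [← two_smul k v, h20, zero_smul]
    exact (eq_neg_of_add_eq_zero_left e).symm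
  have hsymm : ∀ e e', β e e' = β e' e := by
    intro e e'
    have h1 := hβ (e + e')
    simp only [map_add, LinearMap.add_apply] at h1
    rw [hβ, hβ, zero_add, add_zero, add_comm] at h1
    rw [← hneg (β e' e)]
    exact eq_neg_of_add_eq_zero_left h1
  have hdet := hT.det
  have hdet' : ∀ g, X g 0 0 * X g 1 1 + X g 0 1 * X g 1 0 = 1 := fun g => by
    linear_combination hdet g + (X g 0 1 * X g 1 0) * h20
  -- the polarization of `δ`
  have hσd : NS σ d := hσ.mono (by omega)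
  have hD : ∀ r r', β (j₀ r) (j₁ r') + β (j₀ r') (j₁ r) = 0 := by
    let B1 : R →ₗ[k] R →ₗ[k] V := (β.compl₁₂ j₀ j₁) + (β.compl₁₂ j₀ j₁).flip
    have hB1 : ∀ r r', B1 r r' = β (j₀ r) (j₁ r') + β (j₀ r') (j₁ r) := fun r r' => rfl
    intro r r'
    rw [← hB1]
    refine hρ V σ hσd B1 (fun r => ?_) (fun g r r' => ?_) r r'
    · rw [hB1, ← two_smul k, h20, zero_smul]
    · rw [hB1, hB1, map_add, ← hβg, ← hβg, hT.act₀, hT.act₁, hT.act₀, hT.act₁]
      simp only [map_add, map_smul, LinearMap.add_apply, LinearMap.smul_apply]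
      rw [hsymm (j₁ (ρ g r)) (j₀ (ρ g r')), hsymm (j₁ (ρ g r')) (j₀ (ρ g r)), hsymm (j₀ (ρ g r')) (j₀ (ρ g r)),
        hsymm (j₁ (ρ g r')) (j₁ (ρ g r))]
      have e1 : (2 * (X g 0 0 * X g 0 1)) = (0 : k) := by rw [h20, zero_mul]
      have e2 : (2 * (X g 1 0 * X g 1 1)) = (0 : k) := by rw [h20, zero_mul]
      calc β (j₀ (ρ g r)) (j₁ (ρ g r')) + β (j₀ (ρ g r')) (j₁ (ρ g r))
          = (X g 0 0 * X g 1 1 + X g 0 1 * X g 1 0) • (β (j₀ (ρ g r)) (j₁ (ρ g r')) + β (j₀ (ρ g r')) (j₁ (ρ g r))) +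
            (2 * (X g 0 0 * X g 0 1)) • β (j₀ (ρ g r)) (j₀ (ρ g r')) +
            (2 * (X g 1 0 * X g 1 1)) • β (j₁ (ρ g r)) (j₁ (ρ g r')) := by
              rw [hdet', one_smul, e1, e2, zero_smul, zero_smul, add_zero, add_zero]
        _ = _ := by module
  -- `δ = 0`
  have hδ : ∀ r, β (j₀ r) (j₁ r) = 0 := by
    have hadd : ∀ r r', β (j₀ (r + r')) (j₁ (r + r')) = β (j₀ r) (j₁ r) + β (j₀ r') (j₁ r') := by
      intro r r'
      simp only [map_add, LinearMap.add_apply]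
      have e1 := hD r r'
      calc _ = β (j₀ r) (j₁ r) + β (j₀ r') (j₁ r') + (β (j₀ r) (j₁ r') + β (j₀ r') (j₁ r)) := by abel
        _ = _ := by rw [e1, add_zero]
    have hsm : ∀ (t : k) r, β (j₀ (t • r)) (j₁ (t • r)) = t ^ 2 • β (j₀ r) (j₁ r) := by
      intro t r
      simp only [map_smul, LinearMap.smul_apply]
      rw [smul_smul, sq]
    have heq : ∀ g r, σ g (β (j₀ r) (j₁ r)) = β (j₀ (ρ g r)) (j₁ (ρ g r)) := by
      intro g r
      rw [← hβg, hT.act₀, hT.act₁]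
      simp only [map_add, map_smul, LinearMap.add_apply, LinearMap.smul_apply, hβ, smul_zero, zero_add, add_zero]
      rw [hsymm (j₁ (ρ g r)) (j₀ (ρ g r))]
      calc _ = (X g 0 0 * X g 1 1 + X g 0 1 * X g 1 0) • β (j₀ (ρ g r)) (j₁ (ρ g r)) := by module
        _ = _ := by rw [hdet', one_smul]
    let b := Module.finBasis k R
    set W : Submodule k V := Submodule.span k (Set.range fun i => β (j₀ (b i)) (j₁ (b i))) with hW
    have hmem : ∀ r, β (j₀ r) (j₁ r) ∈ W := by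
      intro r
      have e1 : ∀ (s : Finset (Fin (finrank k R))) (c : Fin (finrank k R) → k),
          β (j₀ (∑ i ∈ s, c i • b i)) (j₁ (∑ i ∈ s, c i • b i)) ∈ W := by
        intro s c
        induction s using Finset.induction_on with
        | empty => simp
        | insert i s his ih =>
          rw [Finset.sum_insert his, hadd, hsm]
          exact W.add_mem (W.smul_mem _ (Submodule.subset_span ⟨i, rfl⟩)) ih
      have e2 := e1 Finset.univ (b.repr r)
      rwa [b.sum_repr] at e2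
    have hWs : Stb σ W := by
      intro g w hw
      have e1 : W ≤ W.comap (σ g) := by
        rw [hW, Submodule.span_le]
        rintro _ ⟨i, rfl⟩
        show σ g (β (j₀ (b i)) (j₁ (b i))) ∈ W
        rw [heq]
        exact hmem _
      exact e1 hw
    have hWd : finrank k W < 2 * d := by
      have e1 := finrank_range_le_card (R := k) (fun i => β (j₀ (b i)) (j₁ (b i)))
      rw [Fintype.card_fin] at e1
      have e2 : finrank k W ≤ finrank k R := e1
      omega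
    have hW0 := hσ W hWs hWd
    intro r
    have e1 := hmem r
    rwa [hW0, Submodule.mem_bot] at e1
  -- `β (j₀ r) (j₁ r')` is alternating
  have halt : ∀ r r', β (j₀ r) (j₁ r') = β (j₀ r') (j₁ r) := by
    intro r r'
    rw [← hneg (β (j₀ r') (j₁ r))]
    exact eq_neg_of_add_eq_zero_left (hD r r')
  -- the diagonal part
  have hdiag : ∀ r r', β (j₀ r) (j₀ r') = 0 ∧ β (j₁ r) (j₁ r') = 0 := by
    let B2 : R →ₗ[k] R →ₗ[k] (Fin 2 → V) := LinearMap.mk₂ k (fun r r' => ![β (j₀ r) (j₀ r'), β (j₁ r) (j₁ r')])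
      (fun r s r' => by funext i; fin_cases i <;> simp)
      (fun c r r' => by funext i; fin_cases i <;> simp)
      (fun r r' s => by funext i; fin_cases i <;> simp)
      (fun c r r' => by funext i; fin_cases i <;> simp)
    have hB0 : ∀ r r', B2 r r' 0 = β (j₀ r) (j₀ r') := fun r r' => rfl
    have hB1 : ∀ r r', B2 r r' 1 = β (j₁ r) (j₁ r') := fun r r' => rfl
    have hz := hρ (Fin 2 → V) (twRep σ X hT.one hT.mul) (hσ.tw hT.one hT.mul hT.det) B2 (fun r => by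
      funext i
      fin_cases i
      · exact hβ _
      · exact hβ _) (fun g r r' => by
      have e0 : σ g (β (j₀ r) (j₀ r')) = X g 0 0 ^ 2 • β (j₀ (ρ g r)) (j₀ (ρ g r')) +
          X g 1 0 ^ 2 • β (j₁ (ρ g r)) (j₁ (ρ g r')) := by
        rw [← hβg, hT.act₀, hT.act₀]
        simp only [map_add, map_smul, LinearMap.add_apply, LinearMap.smul_apply]
        rw [hsymm (j₁ (ρ g r)) (j₀ (ρ g r')), halt (ρ g r') (ρ g r)]
        have e1 : (2 * (X g 0 0 * X g 1 0)) = (0 : k) := by rw [h20, zero_mul]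
        calc _ = X g 0 0 ^ 2 • β (j₀ (ρ g r)) (j₀ (ρ g r')) + X g 1 0 ^ 2 • β (j₁ (ρ g r)) (j₁ (ρ g r')) +
              (2 * (X g 0 0 * X g 1 0)) • β (j₀ (ρ g r)) (j₁ (ρ g r')) := by module
          _ = _ := by rw [e1, zero_smul, add_zero]
      have e1 : σ g (β (j₁ r) (j₁ r')) = X g 0 1 ^ 2 • β (j₀ (ρ g r)) (j₀ (ρ g r')) +
          X g 1 1 ^ 2 • β (j₁ (ρ g r)) (j₁ (ρ g r')) := by
        rw [← hβg, hT.act₁, hT.act₁]
        simp only [map_add, map_smul, LinearMap.add_apply, LinearMap.smul_apply]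
        rw [hsymm (j₁ (ρ g r)) (j₀ (ρ g r')), halt (ρ g r') (ρ g r)]
        have e1 : (2 * (X g 0 1 * X g 1 1)) = (0 : k) := by rw [h20, zero_mul]
        calc _ = X g 0 1 ^ 2 • β (j₀ (ρ g r)) (j₀ (ρ g r')) + X g 1 1 ^ 2 • β (j₁ (ρ g r)) (j₁ (ρ g r')) +
              (2 * (X g 0 1 * X g 1 1)) • β (j₀ (ρ g r)) (j₁ (ρ g r')) := by module
          _ = _ := by rw [e1, zero_smul, add_zero]
      have hdd := det_sq (hT.det g)
      funext i
      fin_cases i
      · show B2 (ρ g r) (ρ g r') 0 = twMap σ X g (B2 r r') 0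
        rw [twMap_zero, hB0, hB0, hB1, e0, e1]
        have e3 : (X g 1 0 ^ 2 * X g 1 1 ^ 2 * 2) = (0 : k) := by rw [h20, mul_zero]
        calc β (j₀ (ρ g r)) (j₀ (ρ g r')) = (X g 0 0 ^ 2 * X g 1 1 ^ 2 + X g 0 1 ^ 2 * X g 1 0 ^ 2) •
              β (j₀ (ρ g r)) (j₀ (ρ g r')) + (X g 1 0 ^ 2 * X g 1 1 ^ 2 * 2) • β (j₁ (ρ g r)) (j₁ (ρ g r')) := by
              rw [hdd, one_smul, e3, zero_smul, add_zero]
          _ = _ := by module
      · show B2 (ρ g r) (ρ g r') 1 = twMap σ X g (B2 r r') 1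
        rw [twMap_one, hB1, hB0, hB1, e0, e1]
        have e3 : (X g 0 1 ^ 2 * X g 0 0 ^ 2 * 2) = (0 : k) := by rw [h20, mul_zero]
        calc β (j₁ (ρ g r)) (j₁ (ρ g r')) = (X g 0 0 ^ 2 * X g 1 1 ^ 2 + X g 0 1 ^ 2 * X g 1 0 ^ 2) •
              β (j₁ (ρ g r)) (j₁ (ρ g r')) + (X g 0 1 ^ 2 * X g 0 0 ^ 2 * 2) • β (j₀ (ρ g r)) (j₀ (ρ g r')) := by
              rw [hdd, one_smul, e3, zero_smul, add_zero]
          _ = _ := by module)
    intro r r'
    have e1 := hz r r'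
    exact ⟨congrFun e1 0, congrFun e1 1⟩
  -- the mixed part
  have hmix : ∀ r r', β (j₀ r) (j₁ r') = 0 := by
    let B3 : R →ₗ[k] R →ₗ[k] V := β.compl₁₂ j₀ j₁
    have hB3 : ∀ r r', B3 r r' = β (j₀ r) (j₁ r') := fun r r' => rfl
    intro r r'
    rw [← hB3]
    refine hρ V σ hσd B3 (fun r => hδ r) (fun g r r' => ?_) r r'
    rw [hB3, hB3, ← hβg, hT.act₀, hT.act₁]
    simp only [map_add, map_smul, LinearMap.add_apply, LinearMap.smul_apply]
    rw [(hdiag _ _).1, (hdiag _ _).2, hsymm (j₁ (ρ g r)) (j₀ (ρ g r')), halt (ρ g r') (ρ g r)]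
    calc β (j₀ (ρ g r)) (j₁ (ρ g r')) = (X g 0 0 * X g 1 1 + X g 0 1 * X g 1 0) • β (j₀ (ρ g r)) (j₁ (ρ g r')) := by
          rw [hdet', one_smul]
      _ = _ := by module
  intro e e'
  obtain ⟨r₀, r₁, rfl⟩ := hT.span e
  obtain ⟨s₀, s₁, rfl⟩ := hT.span e'
  simp only [map_add, LinearMap.add_apply]
  rw [(hdiag _ _).1, (hdiag _ _).2, hmix, hsymm, hmix]
  simp

end step

/-- 1-dimensional modules -/
theorem AltZ.of_one {R : Type x} [AddCommGroup R] [Module k R] {ρ : Representation k G R} {e : R}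
    (he : ∀ r, ∃ c : k, r = c • e) (d : ℕ) : AltZ.{u, v, w, x} ρ d := by
  intro V _ _ _ σ _ β hβ _ r r'
  obtain ⟨c, rfl⟩ := he r
  obtain ⟨c', rfl⟩ := he r'
  rw [map_smul, map_smul, LinearMap.smul_apply, hβ, smul_zero, smul_zero]

/-- isomorphic modules -/
theorem AltZ.of_iso {R : Type*} [AddCommGroup R] [Module k R] {ρ : Representation k G R} {R' : Type*}
    [AddCommGroup R'] [Module k R'] {ρ' : Representation k G R'} (φ : R ≃ₗ[k] R') (hφ : ∀ g r, φ (ρ g r) = ρ' g (φ r))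
    {d : ℕ} (h : AltZ.{u, v, w} ρ d) : AltZ.{u, v, w} ρ' d := by
  intro V _ _ _ σ hσ β hβ hβg r r'
  have h1 := h V σ hσ (β.compl₁₂ (φ : R →ₗ[k] R') (φ : R →ₗ[k] R')) (fun r => hβ _) (fun g r r' => by
    show β (φ (ρ g r)) (φ (ρ g r')) = σ g (β (φ r) (φ r'))
    rw [hφ, hφ, hβg]) (φ.symm r) (φ.symm r')
  have h2 : β (φ (φ.symm r)) (φ (φ.symm r')) = 0 := h1
  rwa [φ.apply_symm_apply, φ.apply_symm_apply] at h2

end Cfsg.Agent.R2.H6P2
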