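import Cfsg.Agent.R2.H6P2.Two
import Cfsg.Agent.R2.H6P2.Desc
import Cfsg.Agent.R2.GEO.Main
import Cfsg.Agent.R2.GEO.Five
import Cfsg.Agent.H905.E6T.Base

/-!
# S5749, S5750, box P2: totally singular 2- and 4-spaces over an algebraically closed field of characteristic 2 (helper6)

`χ : SL₂(K) →* Zgrp k`, `NoFx χ` : no fixed vectors; `TTwo ρ χ κ x y` : a totally singular twisted natural submodule.
* `Two.ts_or` : `x, y` or `sh x, sh y` is totally singular;
* `TTwo.four` : `cr X X'` is a quotient of `X ⊗ X'`, `TTwo.four_ts` : it is totally singular;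
* `hull_count` : a stable totally singular 4-space has its composition factors twice in the module.
-/

set_option autoImplicit false
set_option linter.unusedSectionVars false

namespace Cfsg.Agent.R2.H6P2

open Module Matrix
open Cfsg.Lie
open Cfsg.Agent.ChevalleyStructure.E6Min.Basic (Zgrp)
open Cfsg.Agent.H943.SL2Rel Cfsg.Agent.H943.SL2Mod Cfsg.Agent.H943.RepAdd
open Cfsg.Agent.R2.H28.SL2 Cfsg.Agent.R2.SL2 Cfsg.Agent.R2.GEO
open Cfsg.Agent.H952.F4 (sh cr tf)
open Cfsg.Agent.H952.F4.Jord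
open Cfsg.Agent.H163.E6 (V V' TS)
open Cfsg.Agent.H905.E6T (sh_zero cr_zero_left cr_zero_right tf_zero_right ts_span)

universe u v w

variable {k : Type u} [Field k] {K : Type w} [Field K]

section pair

variable {ρ ρ' : Representation k ↥(Zgrp k) (I27 → k)}

theorem pair_sh (h : Pair ρ ρ') (g : ↥(Zgrp k)) (x : I27 → k) : sh (ρ g x) = ρ' g (sh x) := by
  rcases h with ⟨rfl, rfl⟩ | ⟨rfl, rfl⟩
  · exact Cfsg.Agent.H163.E6.Act.sh_act g x
  · exact Cfsg.Agent.H163.E6.Act.sh_act' g x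

theorem pair_cr (h : Pair ρ ρ') (g : ↥(Zgrp k)) (x y : I27 → k) : cr (ρ g x) (ρ g y) = ρ' g (cr x y) := by
  rcases h with ⟨rfl, rfl⟩ | ⟨rfl, rfl⟩
  · exact Cfsg.Agent.H163.E6.Act.cr_act g x y
  · exact Cfsg.Agent.H163.E6.Act.cr_act' g x y

theorem pair_tf (h : Pair ρ ρ') (g : ↥(Zgrp k)) (x y : I27 → k) : tf (ρ g x) (ρ' g y) = tf x y := by
  rcases h with ⟨rfl, rfl⟩ | ⟨rfl, rfl⟩
  · exact Cfsg.Agent.H163.E6.Act.tf_act g x y
  · rw [tf_comm, Cfsg.Agent.H163.E6.Act.tf_act, tf_comm]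

theorem pair_left (h : Pair ρ ρ') : ρ = V k ∨ ρ = V' k := by
  rcases h with ⟨rfl, -⟩ | ⟨rfl, -⟩
  · exact Or.inl rfl
  · exact Or.inr rfl

theorem exists_pair (h : ρ = V k ∨ ρ = V' k) : ∃ ρ', Pair ρ ρ' := by
  rcases h with rfl | rfl
  · exact ⟨V' k, Or.inl ⟨rfl, rfl⟩⟩
  · exact ⟨V k, Or.inr ⟨rfl, rfl⟩⟩

end pair

theorem ts_set {S : Set (I27 → k)} (h1 : ∀ x ∈ S, sh x = 0) (h2 : ∀ x ∈ S, ∀ y ∈ S, cr x y = 0) :
    TS (Submodule.span k S) := by
  have h := ts_span (F := k) (f := fun x : S => (x : I27 → k)) (fun x => h1 x x.2) (fun x y => h2 x x.2 y y.2)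
  rwa [Subtype.range_coe] at h

/-- the restriction to `SL₂(K)` -/
abbrev rp (ρ : Representation k ↥(Zgrp k) (I27 → k)) (χ : SpecialLinearGroup (Fin 2) K →* ↥(Zgrp k)) :
    Representation k (SpecialLinearGroup (Fin 2) K) (I27 → k) := MonoidHom.comp ρ χ

theorem rp_apply (ρ : Representation k ↥(Zgrp k) (I27 → k)) (χ : SpecialLinearGroup (Fin 2) K →* ↥(Zgrp k))
    (g : SpecialLinearGroup (Fin 2) K) (x : I27 → k) : rp ρ χ g x = ρ (χ g) x := rfl

/-- no fixed vectors -/
def NoFx (χ : SpecialLinearGroup (Fin 2) K →* ↥(Zgrp k)) : Prop :=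
  ∀ ρ : Representation k ↥(Zgrp k) (I27 → k), (ρ = V k ∨ ρ = V' k) → ∀ v, (∀ g, ρ (χ g) v = v) → v = 0

/-- a totally singular twisted natural submodule -/
structure TTwo (ρ : Representation k ↥(Zgrp k) (I27 → k)) (χ : SpecialLinearGroup (Fin 2) K →* ↥(Zgrp k))
    (κ : K →+* k) (x y : I27 → k) : Prop extends Two (rp ρ χ) κ x y where
  shx : sh x = 0
  shy : sh y = 0
  crxy : cr x y = 0

theorem kdet (κ : K →+* k) (g : SpecialLinearGroup (Fin 2) K) :
    κ (g.1 0 0) * κ (g.1 1 1) - κ (g.1 0 1) * κ (g.1 1 0) = 1 := by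
  have h := g.2
  rw [Matrix.det_fin_two] at h
  rw [← map_mul, ← map_mul, ← map_sub, h, map_one]

variable {ρ ρ' : Representation k ↥(Zgrp k) (I27 → k)} {χ : SpecialLinearGroup (Fin 2) K →* ↥(Zgrp k)}

theorem Two.wact {τ : Representation k (SpecialLinearGroup (Fin 2) K) (I27 → k)} {κ : K →+* k} {x y : I27 → k}
    (h : Two τ κ x y) : τ w x = -y ∧ τ w y = x := by
  constructor
  · rw [h.act₀]
    show κ 0 • x + κ (-1) • y = -y
    rw [map_zero, zero_smul, zero_add, map_neg, map_one, neg_one_smul]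
  · rw [h.act₁]
    show κ 1 • x + κ 0 • y = x
    rw [map_zero, zero_smul, add_zero, map_one, one_smul]

/-- `x` and `y` are linearly independent -/
theorem Two.indep {τ : Representation k (SpecialLinearGroup (Fin 2) K) (I27 → k)} {κ : K →+* k} {x y : I27 → k}
    (h : Two τ κ x y) {α β : k} (h0 : α • x + β • y = 0) : α = 0 ∧ β = 0 := by
  have hu1 : τ (u 1) x = x := by
    rw [h.act₀]
    show κ 1 • x + κ 0 • y = x
    rw [map_zero, zero_smul, add_zero, map_one, one_smul]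
  have hu2 : τ (u 1) y = x + y := by
    rw [h.act₁]
    show κ 1 • x + κ 1 • y = x + y
    rw [map_one, one_smul, one_smul]
  have h1 := congrArg (τ (u 1)) h0
  rw [map_add, map_smul, map_smul, hu1, hu2, map_zero] at h1
  have h2 : β • x = 0 := by
    have e : β • x = (α • x + β • (x + y)) - (α • x + β • y) := by module
    rw [e, h1, h0, sub_zero]
  have h3 : β = 0 := (smul_eq_zero.1 h2).resolve_right h.ne
  rw [h3, zero_smul, add_zero] at h0
  exact ⟨(smul_eq_zero.1 h0).resolve_right h.ne, h3⟩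

section char2

variable [CharP k 2]

theorem cr_self0 (x : I27 → k) : cr x x = 0 := by
  rw [cr_self, CharTwo.two_eq_zero, zero_smul]

theorem ts_four {a b c d : I27 → k} (s1 : sh a = 0) (s2 : sh b = 0) (s3 : sh c = 0) (s4 : sh d = 0)
    (h12 : cr a b = 0) (h13 : cr a c = 0) (h14 : cr a d = 0) (h23 : cr b c = 0) (h24 : cr b d = 0)
    (h34 : cr c d = 0) : TS (Submodule.span k {a, b, c, d}) := by
  have h21 : cr b a = 0 := (cr_comm b a).trans h12
  have h31 : cr c a = 0 := (cr_comm c a).trans h13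
  have h41 : cr d a = 0 := (cr_comm d a).trans h14
  have h32 : cr c b = 0 := (cr_comm c b).trans h23
  have h42 : cr d b = 0 := (cr_comm d b).trans h24
  have h43 : cr d c = 0 := (cr_comm d c).trans h34
  have h11 : cr a a = 0 := cr_self0 a
  have h22 : cr b b = 0 := cr_self0 b
  have h33 : cr c c = 0 := cr_self0 c
  have h44 : cr d d = 0 := cr_self0 d
  refine ts_set (fun x hx => ?_) fun x hx y hy => ?_
  · simp only [Set.mem_insert_iff, Set.mem_singleton_iff] at hx
    rcases hx with hx | hx | hx | hx <;> rw [hx]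
    exacts [s1, s2, s3, s4]
  · simp only [Set.mem_insert_iff, Set.mem_singleton_iff] at hx hy
    rcases hx with hx | hx | hx | hx <;> rcases hy with hy | hy | hy | hy <;> rw [hx, hy]
    exacts [h11, h12, h13, h14, h21, h22, h23, h24, h31, h32, h33, h34, h41, h42, h43, h44]

theorem Two.cr_zero (hρ : Pair ρ ρ') (hnf : NoFx χ) {κ : K →+* k} {x y : I27 → k} (h : Two (rp ρ χ) κ x y) :
    cr x y = 0 := by
  refine hnf ρ' (pair_left hρ.swap) _ fun g => ?_
  have h20 : (2 : k) = 0 := CharTwo.two_eq_zero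
  have e0 : ρ (χ g) x = _ := h.act₀ g
  have e1 : ρ (χ g) y = _ := h.act₁ g
  rw [← pair_cr hρ, e0, e1, cr_add_left, cr_add_right, cr_add_right, cr_smul_left, cr_smul_left, cr_smul_left,
    cr_smul_left, cr_smul_right, cr_smul_right, cr_smul_right, cr_smul_right, cr_self0, cr_self0, smul_zero, smul_zero,
    smul_zero, smul_zero, zero_add, add_zero, cr_comm y x, smul_smul, smul_smul, ← add_smul]
  have e2 : κ (g.1 0 0) * κ (g.1 1 1) + κ (g.1 1 0) * κ (g.1 0 1) = 1 := by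
    linear_combination kdet κ g + (κ (g.1 0 1) * κ (g.1 1 0)) * h20
  rw [e2, one_smul]

theorem ka_succ (ι : K →+* k) (n : ℕ) (t : K) : ka ι (n + 1) t = ka ι n t ^ 2 := by
  rw [ka_apply, ka_apply, pow_succ, pow_mul]

/-- the image under `sh` -/
theorem Two.shr (hρ : Pair ρ ρ') (hnf : NoFx χ) {ι : K →+* k} {n : ℕ} {x y : I27 → k}
    (h : Two (rp ρ χ) (ka ι n) x y) (hx : sh x ≠ 0) : TTwo ρ' χ (ka ι (n + 1)) (sh x) (sh y) := by
  have hcr := h.cr_zero hρ hnf
  have hsm : ∀ a b : k, sh (a • x + b • y) = a ^ 2 • sh x + b ^ 2 • sh y := by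
    intro a b
    rw [sh_add, sh_smul, sh_smul, cr_smul_left, cr_smul_right, hcr, smul_zero, smul_zero, add_zero]
  have hxy := h.indep (α := cubicT x) (β := tf (sh x) y)
  have h1 := cr_sh_cr x y
  rw [hcr, cr_zero_right] at h1
  have h2 : tf (sh x) y = 0 ∧ cubicT x = 0 := h.indep (by rw [add_comm]; exact h1.symm)
  have h3 := cr_sh_cr y x
  rw [cr_comm y x, hcr, cr_zero_right] at h3
  have h4 : cubicT y = 0 ∧ tf (sh y) x = 0 := h.indep h3.symm
  refine ⟨⟨fun g => ?_, fun g => ?_, hx⟩, ?_, ?_, ?_⟩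
  · rw [rp_apply, ← pair_sh hρ, show ρ (χ g) x = _ from h.act₀ g, hsm, ka_succ, ka_succ]
  · rw [rp_apply, ← pair_sh hρ, show ρ (χ g) y = _ from h.act₁ g, hsm, ka_succ, ka_succ]
  · rw [sh_sh, h2.2, zero_smul]
  · rw [sh_sh, h4.1, zero_smul]
  · have h5 := sh_cr x y
    rw [hcr, sh_zero, zero_add, h2.1, tf_comm, h4.2, zero_smul, zero_smul, add_zero] at h5
    exact h5

/-- **`x, y` or `sh x, sh y` is totally singular** -/
theorem Two.ts_or (hρ : Pair ρ ρ') (hnf : NoFx χ) {ι : K →+* k} {n : ℕ} {x y : I27 → k}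
    (h : Two (rp ρ χ) (ka ι n) x y) : TTwo ρ χ (ka ι n) x y ∨ TTwo ρ' χ (ka ι (n + 1)) (sh x) (sh y) := by
  by_cases hx : sh x = 0
  · left
    refine ⟨h, hx, ?_, h.cr_zero hρ hnf⟩
    have h1 : y = ρ (χ (-w)) x := by
      have e1 : rp ρ χ (-w) x = _ := h.act₀ (-w)
      have e2 : ρ (χ (-w)) x = ka ι n ((-w : SpecialLinearGroup (Fin 2) K).1 0 0) • x +
        ka ι n ((-w : SpecialLinearGroup (Fin 2) K).1 1 0) • y := e1
      have e3 : (-w : SpecialLinearGroup (Fin 2) K).1 0 0 = 0 := by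
        show -(0 : K) = 0
        rw [neg_zero]
      have e4 : (-w : SpecialLinearGroup (Fin 2) K).1 1 0 = 1 := by
        show -(-1 : K) = 1
        rw [neg_neg]
      rw [e2, e3, e4, map_zero, map_one, zero_smul, one_smul, zero_add]
    rw [h1, pair_sh hρ, hx, map_zero]
  · exact Or.inr (h.shr hρ hnf hx)

end char2

theorem TTwo.ts {κ : K →+* k} {x y : I27 → k} (h : TTwo ρ χ κ x y) :
    ∀ w ∈ Submodule.span k {x, y}, sh w = 0 := by
  intro w hw
  obtain ⟨a, b, rfl⟩ := Submodule.mem_span_pair.1 hw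
  rw [sh_add, sh_smul, sh_smul, cr_smul_left, cr_smul_right, h.shx, h.shy, h.crxy]
  simp

/-- **the product of two totally singular twisted natural modules** -/
theorem TTwo.four (hρ : Pair ρ ρ') {κ κ' : K →+* k} {x y x' y' : I27 → k} (h : TTwo ρ χ κ x y)
    (h' : TTwo ρ χ κ' x' y') : Four (rp ρ' χ) κ κ' (cr x x') (cr x y') (cr y x') (cr y y') := by
  have e0 : ∀ g, ρ (χ g) x = _ := h.act₀
  have e1 : ∀ g, ρ (χ g) y = _ := h.act₁
  have e0' : ∀ g, ρ (χ g) x' = _ := h'.act₀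
  have e1' : ∀ g, ρ (χ g) y' = _ := h'.act₁
  refine ⟨fun g => ?_, fun g => ?_, fun g => ?_, fun g => ?_⟩
  · rw [rp_apply, ← pair_cr hρ, e0, e0', cr_add_left, cr_smul_left, cr_smul_left, cr_add_right, cr_add_right,
      cr_smul_right, cr_smul_right, cr_smul_right, cr_smul_right]
  · rw [rp_apply, ← pair_cr hρ, e0, e1', cr_add_left, cr_smul_left, cr_smul_left, cr_add_right, cr_add_right,
      cr_smul_right, cr_smul_right, cr_smul_right, cr_smul_right]
  · rw [rp_apply, ← pair_cr hρ, e1, e0', cr_add_left, cr_smul_left, cr_smul_left, cr_add_right, cr_add_right,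
      cr_smul_right, cr_smul_right, cr_smul_right, cr_smul_right]
  · rw [rp_apply, ← pair_cr hρ, e1, e1', cr_add_left, cr_smul_left, cr_smul_left, cr_add_right, cr_add_right,
      cr_smul_right, cr_smul_right, cr_smul_right, cr_smul_right]

/-- **it is totally singular** -/
theorem TTwo.four_ts [CharP k 2] (hρ : Pair ρ ρ') (hnf : NoFx χ) {κ κ' : K →+* k} {x y x' y' : I27 → k}
    (h : TTwo ρ χ κ x y) (h' : TTwo ρ χ κ' x' y') :
    TS (Submodule.span k {cr x x', cr x y', cr y x', cr y y'}) := by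
  have hF := h.four hρ h'
  -- the pure products are singular
  have hsh : ∀ a b : I27 → k, sh a = 0 → sh b = 0 → sh (cr a b) = 0 := by
    intro a b ha hb
    have h1 := sh_cr a b
    rw [ha, hb, cr_zero_right, tf_zero_left, tf_zero_right, zero_smul, zero_smul, add_zero, add_zero] at h1
    exact h1
  have hcc : ∀ a b c : I27 → k, sh a = 0 → cr b c = 0 → cr (cr a b) (cr a c) = 0 := by
    intro a b c ha hbc
    have h1 := cr_cr a b c
    rw [ha, hbc, cr_zero_left, tf_zero_left, tf_zero_left, tf_zero_right, zero_smul, zero_smul, zero_smul, add_zero,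
      add_zero, add_zero] at h1
    exact h1
  have s1 := hsh x x' h.shx h'.shx
  have s2 := hsh x y' h.shx h'.shy
  have s3 := hsh y x' h.shy h'.shx
  have s4 := hsh y y' h.shy h'.shy
  have c12 := hcc x x' y' h.shx h'.crxy
  have c34 := hcc y x' y' h.shy h'.crxy
  have c13 : cr (cr x x') (cr y x') = 0 := by
    rw [cr_comm x x', cr_comm y x']
    exact hcc x' x y h'.shx h.crxy
  have c24 : cr (cr x y') (cr y y') = 0 := by
    rw [cr_comm x y', cr_comm y y']
    exact hcc y' x y h'.shy h.crxy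
  have hxy : sh (x + y) = 0 := by rw [sh_add, h.shx, h.shy, h.crxy, add_zero, add_zero]
  have hxy' : sh (x' + y') = 0 := by rw [sh_add, h'.shx, h'.shy, h'.crxy, add_zero, add_zero]
  have c14 : cr (cr x x') (cr y y') + cr (cr x y') (cr y x') = 0 := by
    have h1 := hsh (x + y) (x' + y') hxy hxy'
    rw [cr_add_left, cr_add_right, cr_add_right, sh_add, sh_add, sh_add, cr_add_left, cr_add_right, cr_add_right,
      s1, s2, s3, s4, c12, c34, c13, c24] at h1
    simpa using h1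
  -- the remaining product is fixed
  have hβ : cr (cr x x') (cr y y') = 0 := by
    refine hnf ρ (pair_left hρ) _ fun g => ?_
    have c23 : cr (cr x y') (cr y x') = -cr (cr x x') (cr y y') := by
      rw [eq_neg_iff_add_eq_zero, add_comm]
      exact c14
    have d12 : cr (cr x y') (cr x x') = 0 := by rw [cr_comm, c12]
    have d13 : cr (cr y x') (cr x x') = 0 := by rw [cr_comm, c13]
    have d24 : cr (cr y y') (cr x y') = 0 := by rw [cr_comm, c24]
    have d34 : cr (cr y y') (cr y x') = 0 := by rw [cr_comm, c34]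
    have d14 : cr (cr y y') (cr x x') = cr (cr x x') (cr y y') := cr_comm _ _
    have d23 : cr (cr y x') (cr x y') = -cr (cr x x') (cr y y') := by rw [cr_comm, c23]
    have t1 : cr (cr x x') (cr x x') = 0 := cr_self0 _
    have t2 : cr (cr x y') (cr x y') = 0 := cr_self0 _
    have t3 : cr (cr y x') (cr y x') = 0 := cr_self0 _
    have t4 : cr (cr y y') (cr y y') = 0 := cr_self0 _
    rw [← pair_cr hρ.swap, show ρ' (χ g) (cr x x') = _ from hF.act₀ g, show ρ' (χ g) (cr y y') = _ from hF.act₃ g]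
    simp only [cr_add_left, cr_add_right, cr_smul_left, cr_smul_right, c12, c34, c13, c24, d12, d13, d24, d34, d14, d23,
      c23, t1, t2, t3, t4, smul_zero, add_zero, zero_add, smul_neg]
    have e1 := kdet κ g
    have e2 := kdet κ' g
    have e3 : (κ (g.1 0 0) * κ (g.1 1 1) - κ (g.1 0 1) * κ (g.1 1 0)) *
        (κ' (g.1 0 0) * κ' (g.1 1 1) - κ' (g.1 0 1) * κ' (g.1 1 0)) = 1 := by rw [e1, e2, mul_one]
    calc _ = ((κ (g.1 0 0) * κ (g.1 1 1) - κ (g.1 0 1) * κ (g.1 1 0)) *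
          (κ' (g.1 0 0) * κ' (g.1 1 1) - κ' (g.1 0 1) * κ' (g.1 1 0))) • cr (cr x x') (cr y y') := by module
      _ = _ := by rw [e3, one_smul]
  have hβ' : cr (cr x y') (cr y x') = 0 := by
    rw [hβ, zero_add] at c14
    exact c14
  exact ts_four s1 s2 s3 s4 c12 c13 hβ hβ' c24 c34

/-- the sum of two orthogonal totally singular twisted natural modules -/
theorem TTwo.sum_ts [CharP k 2] {κ κ' : K →+* k} {x y x' y' : I27 → k}
    (h : TTwo ρ χ κ x y) (h' : TTwo ρ χ κ' x' y') (h0 : cr x x' = 0 ∧ cr x y' = 0 ∧ cr y x' = 0 ∧ cr y y' = 0) :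
    TS (Submodule.span k {x, y, x', y'}) := by
  exact ts_four h.shx h.shy h'.shx h'.shy h.crxy h0.1 h0.2.1 h0.2.2.1 h0.2.2.2 h'.crxy

/-! ### multiplicities -/

section cf

variable [CharP k 2] [DecidableEq k] [Fintype K] [DecidableEq K] [CharP K 2] [IsAlgClosed k] (ι : K →+* k)

theorem cf_mono {V : Type v} [AddCommGroup V] [Module k V] [FiniteDimensional k V]
    {τ : Representation k (SpecialLinearGroup (Fin 2) K) V} {W W' : Submodule k V} (h : W ≤ W') (hW : Stb τ W)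
    (hW' : Stb τ W') : cf (Sy.{u, v, w} ι 2) (subRep τ W hW) ≤ cf (Sy.{u, v, w} ι 2) (subRep τ W' hW') := by
  have h1 : ∀ g, ∀ x ∈ W.comap W'.subtype, subRep τ W' hW' g x ∈ W.comap W'.subtype := fun g x hx => hW g _ hx
  have h2 : Eqv (subRep (subRep τ W' hW') (W.comap W'.subtype) h1) (subRep τ W hW) :=
    ⟨Submodule.comapSubtypeEquivOfLe h, fun g x => Subtype.ext rfl⟩
  rw [← cf_iso _ h2]
  exact cf_sub_le _ _ _ _

/-- **duality** -/
theorem cf_pair (hρ : Pair ρ ρ') : cf (Sy.{u, u, w} ι 2) (rp ρ' χ) = cf (Sy.{u, u, w} ι 2) (rp ρ χ) :=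
  cf_dual ι 2 (B := tfB k) ⟨fun g x y => pair_tf hρ (χ g) x y, fun x hx => tf_nondeg hx, fun y hy =>
    tf_nondeg fun x => by rw [tf_comm]; exact hy x⟩

/-- **composition factors of totally singular 4-spaces** -/
theorem hull_cf (hper : commutator (SpecialLinearGroup (Fin 2) K) = ⊤) (hρ : Pair ρ ρ') {Z : Submodule k (I27 → k)}
    (hZ : Stb (rp ρ χ) Z) (h4 : finrank k Z = 4) (hts : ∀ w ∈ Z, sh w = 0) :
    cf (Sy.{u, u, w} ι 2) (subRep (rp ρ χ) Z hZ) + cf (Sy.{u, u, w} ι 2) (subRep (rp ρ χ) Z hZ) ≤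
      cf (Sy.{u, u, w} ι 2) (rp ρ χ) := by
  obtain ⟨Y, n, n', hZY, H⟩ := exists_hull_four hper χ hρ (W := Z) (fun a w hw => hZ a w hw) h4 hts
  obtain ⟨hk, hr, e1, -⟩ := cf_exact (Sy.{u, u, w} ι 2) (rp ρ χ) (rp ρ χ) n (fun g x => (H.comm g x).symm)
  rw [e1]
  have hrn : LinearMap.range n = Y := H.range
  have hZr : Z ≤ LinearMap.range n := by rw [hrn]; exact hZY
  have hrk : LinearMap.range n ≤ LinearMap.ker n := by
    rintro _ ⟨x, rfl⟩
    exact H.sq x
  exact add_le_add (cf_mono ι (hZr.trans hrk) hZ hk) (cf_mono ι hZr hZ hr)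

theorem count_of_isV {τ : Representation k (SpecialLinearGroup (Fin 2) K) (I27 → k)} {W : Submodule k (I27 → k)}
    (hW : Stb τ W) {b : ℕ} (h : IsV ι 2 (subRep τ W hW) b) :
    cf (Sy.{u, u, w} ι 2) (subRep τ W hW) = {b} := cf_irr (Sy.{u, u, w} ι 2) h

end cf

end Cfsg.Agent.R2.H6P2
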