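import Cfsg.Agent.R2.H6P2.Geo
import Cfsg.Agent.H65.SixA

/-!
# S5749, S5750, box P2: there is a submodule of dimension 2 (helper6)

`exists_two` : `V` or `V'` has an irreducible submodule of dimension 2.
-/

set_option autoImplicit false
set_option linter.unusedSectionVars false

namespace Cfsg.Agent.R2.H6P2

open Module Matrix
open Cfsg.Lie
open Cfsg.Agent.ChevalleyStructure.E6Min.Basic (Zgrp)
open Cfsg.Agent.H943.SL2Rel Cfsg.Agent.H943.SL2Mod Cfsg.Agent.H943.RepAdd
open Cfsg.Agent.R2.H28.SL2 Cfsg.Agent.R2.SL2 Cfsg.Agent.R2.GEO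
open Cfsg.Agent.H952.F4 (sh cr tf)
open Cfsg.Agent.H952.F4.Jord
open Cfsg.Agent.H163.E6 (V V' TS)
open Cfsg.Agent.H905.E6T (sh_zero cr_zero_left cr_zero_right tf_zero_right ts_span)

universe u v w

variable {k : Type u} [Field k] {K : Type w} [Field K]
variable {ρ ρ' : Representation k ↥(Zgrp k) (I27 → k)} {χ : SpecialLinearGroup (Fin 2) K →* ↥(Zgrp k)}

/-- the subspace spanned by the `sh w` is totally singular, if `cr = 0` on `W` -/
theorem shW_ts {W : Submodule k (I27 → k)} (h2 : 2 ≤ finrank k W) (hcr : ∀ x ∈ W, ∀ y ∈ W, cr x y = 0) :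
    TS (Submodule.span k (sh '' (W : Set (I27 → k)))) := by
  have h1 : ∀ x ∈ W, ∀ y ∈ W, cubicT x • y = (-tf (sh x) y) • x := by
    intro x hx y hy
    have h2 := cr_sh_cr x y
    rw [hcr x hx y hy, cr_zero_right] at h2
    rw [neg_smul, eq_neg_iff_add_eq_zero, ← h2]
  have hN : ∀ x ∈ W, cubicT x = 0 := by
    intro x hx
    by_contra h0
    have := Cfsg.Agent.H65.SixA.le_one h0 fun y hy => ⟨_, h1 x hx y hy⟩
    omega
  have hT : ∀ x ∈ W, ∀ y ∈ W, tf (sh x) y = 0 := by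
    intro x hx y hy
    by_cases h0 : x = 0
    · rw [h0, sh_zero, GEO.tf_zero_left]
    · have h2 := h1 x hx y hy
      rw [hN x hx, zero_smul, eq_comm, smul_eq_zero] at h2
      exact neg_eq_zero.1 (h2.resolve_right h0)
  refine ts_set ?_ ?_
  · rintro _ ⟨x, hx, rfl⟩
    rw [sh_sh, hN x hx, zero_smul]
  · rintro _ ⟨x, hx, rfl⟩ _ ⟨y, hy, rfl⟩
    have h2 := sh_cr x y
    rw [hcr x hx y hy, sh_zero, zero_add, hT x hx y hy, tf_comm, hT y hy x hx, zero_smul, zero_smul, add_zero] at h2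
    exact h2

/-- its dimension is at most that of `W` -/
theorem finrank_shW_le {W : Submodule k (I27 → k)} (hcr : ∀ x ∈ W, ∀ y ∈ W, cr x y = 0) :
    finrank k (Submodule.span k (sh '' (W : Set (I27 → k)))) ≤ finrank k W := by
  let b := Module.finBasis k W
  have h1 : Submodule.span k (sh '' (W : Set (I27 → k))) ≤
      Submodule.span k (Set.range fun i => sh ((b i : W) : I27 → k)) := by
    rw [Submodule.span_le]
    rintro _ ⟨x, hx, rfl⟩
    have e1 : ∀ (s : Finset (Fin (finrank k W))) (c : Fin (finrank k W) → k),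
        sh ((∑ i ∈ s, c i • b i : W) : I27 → k) ∈ Submodule.span k (Set.range fun i => sh ((b i : W) : I27 → k)) := by
      intro s c
      induction s using Finset.induction_on with
      | empty =>
        rw [Finset.sum_empty]
        show sh (0 : I27 → k) ∈ _
        rw [sh_zero]
        exact Submodule.zero_mem _
      | insert i s his ih =>
        rw [Finset.sum_insert his, Submodule.coe_add, sh_add, hcr _ (Subtype.coe_prop _) _ (Subtype.coe_prop _), add_zero,
          Submodule.coe_smul, sh_smul]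
        exact Submodule.add_mem _ (Submodule.smul_mem _ _ (Submodule.subset_span ⟨i, rfl⟩)) ih
    have e2 := e1 Finset.univ (b.repr ⟨x, hx⟩)
    rwa [b.sum_repr] at e2
  refine (Submodule.finrank_mono h1).trans ?_
  have h2 := finrank_range_le_card (R := k) (fun i => sh ((b i : W) : I27 → k))
  rw [Fintype.card_fin] at h2
  exact h2

theorem stb_shW (hρ : Pair ρ ρ') {W : Submodule k (I27 → k)} (hW : Stb (rp ρ χ) W) :
    Stb (rp ρ' χ) (Submodule.span k (sh '' (W : Set (I27 → k)))) := by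
  refine stb_span fun g x hx => ?_
  obtain ⟨y, hy, rfl⟩ := hx
  exact Submodule.subset_span ⟨_, hW g y hy, pair_sh hρ (χ g) y⟩

variable [CharP k 2] [DecidableEq k] [Fintype K] [DecidableEq K] [CharP K 2] [IsAlgClosed k] (ι : K →+* k)

include ι

/-- `1`-dimensional submodules -/
theorem no_one (hnf : NoFx χ) (hρ : ρ = V k ∨ ρ = V' k)
    {W : Submodule k (I27 → k)} (hW : Stb (rp ρ χ) W) : finrank k W ≠ 1 := by
  intro h1
  have hI : Irrd (subRep (rp ρ χ) W hW) := by
    refine ⟨nontrivial_of_finrank_pos (R := k) (by omega), fun U _ => ?_⟩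
    have h2 := Submodule.finrank_le U
    have h3 : finrank k U = 0 ∨ finrank k U = 1 := by omega
    rcases h3 with h3 | h3
    · exact Or.inl (Submodule.finrank_eq_zero.1 h3)
    · exact Or.inr (Submodule.eq_top_of_finrank_eq (by rw [h3, h1]))
  obtain ⟨b, hb⟩ := (Sy ι 2).ex _ hI
  obtain ⟨l, hl, -, hq, hd, φ, hφ⟩ := exists_iso_FS ι hb
  have hl0 : l = [] := by
    rw [h1] at hd
    by_contra hne
    have h3 : l.length ≠ 0 := fun h => hne (List.length_eq_zero_iff.1 h)
    have h4 : 2 ^ 1 ≤ 2 ^ l.length := Nat.pow_le_pow_right (by norm_num) (by omega)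
    omega
  subst hl0
  have h5 : ∀ g, fs ι [] g (on1 ι) = on1 ι := fun g => Subtype.ext rfl
  have h6 : (φ (on1 ι) : I27 → k) = 0 := by
    refine hnf ρ hρ _ fun g => ?_
    have h7 := hφ g (on1 ι)
    rw [h5] at h7
    exact (congrArg Subtype.val h7).symm
  have h8 : on1 ι = 0 := φ.map_eq_zero_iff.1 (Subtype.ext h6)
  have h9 := congrArg (co1 ι) h8
  rw [co1_on1, map_zero] at h9
  exact one_ne_zero h9

/-- **existence of a submodule of dimension 2** -/
theorem exists_two {a : ℕ} (hK : Fintype.card K = 2 ^ a) (hper : commutator (SpecialLinearGroup (Fin 2) K) = ⊤)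
    (hnf : NoFx χ) : ∃ ρ₀ : Representation k ↥(Zgrp k) (I27 → k), (ρ₀ = V k ∨ ρ₀ = V' k) ∧
      ∃ n < a, ∃ x y, Two (rp ρ₀ χ) (ka ι n) x y := by
  classical
  have h27 : finrank k (I27 → k) = 27 := by rw [finrank_fintype_fun_eq_card]; rfl
  -- the minimal dimension
  let P : ℕ → Prop := fun d => ∃ ρ₀ : Representation k ↥(Zgrp k) (I27 → k), (ρ₀ = V k ∨ ρ₀ = V' k) ∧
    ∃ W : Submodule k (I27 → k), Stb (rp ρ₀ χ) W ∧ W ≠ ⊥ ∧ finrank k W = d
  have hP : ∃ d, P d := by
    refine ⟨27, V k, Or.inl rfl, ⊤, fun _ _ _ => trivial, fun h => ?_, by rw [finrank_top, h27]⟩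
    have h1 := finrank_top k (I27 → k)
    rw [h, finrank_bot, h27] at h1
    omega
  obtain ⟨ρ₀, hρ₀, W, hW, hW0, hd⟩ := Nat.find_spec hP
  have hmin : ∀ ρ₁ : Representation k ↥(Zgrp k) (I27 → k), (ρ₁ = V k ∨ ρ₁ = V' k) →
      ∀ U : Submodule k (I27 → k), Stb (rp ρ₁ χ) U → finrank k U < Nat.find hP → U = ⊥ := by
    intro ρ₁ hρ₁ U hU hlt
    by_contra hU0
    exact Nat.find_min hP hlt ⟨ρ₁, hρ₁, U, hU, hU0, rfl⟩
  obtain ⟨ρ₁, hp⟩ := exists_pair hρ₀
  have hI : Irrd (subRep (rp ρ₀ χ) W hW) := by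
    refine irr_of_min (rp ρ₀ χ) hW hW0 fun U hUW hU => ?_
    by_cases hU0 : U = ⊥
    · exact Or.inl hU0
    · right
      refine Submodule.eq_of_le_of_finrank_le hUW ?_
      by_contra hlt
      exact hU0 (hmin ρ₀ hρ₀ U hU (by omega))
  obtain ⟨hA, n, hn⟩ := altZ_irr.{u, u, w} ι hI
  have hpos : 0 < finrank k W := Nat.pos_of_ne_zero fun h => hW0 (Submodule.finrank_eq_zero.1 h)
  have hne1 := no_one ι hnf hρ₀ hW
  by_cases h2 : finrank k W = 2
  · obtain ⟨b, hb⟩ := (Sy ι 2).ex _ hI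
    obtain ⟨n, hna, -, x, y, hxy, -⟩ := two_of_isV ι hK hb h2
    refine ⟨ρ₀, hρ₀, n, hna, x, y, ⟨fun g => ?_, fun g => ?_, fun h => hxy.ne (Subtype.ext h)⟩⟩
    · exact congrArg Subtype.val (hxy.act₀ g)
    · exact congrArg Subtype.val (hxy.act₁ g)
  exfalso
  have h4 : 4 ≤ finrank k W := by
    have e1 : n ≠ 0 := by
      rintro rfl
      exact hne1 hn
    have e2 : n ≠ 1 := by
      rintro rfl
      exact h2 hn
    have e3 : 2 ^ 2 ≤ 2 ^ n := Nat.pow_le_pow_right (by norm_num) (by omega)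
    omega
  have hcr : ∀ x ∈ W, ∀ y ∈ W, cr x y = 0 := by
    have h5 := hA (I27 → k) (rp ρ₁ χ) (fun U hU hlt => hmin ρ₁ (pair_left hp.swap) U hU (by omega))
      ((crB k).compl₁₂ W.subtype W.subtype) (fun x => cr_self0 _) (fun g x y => pair_cr hp (χ g) _ _)
    intro x hx y hy
    exact h5 ⟨x, hx⟩ ⟨y, hy⟩
  -- a totally singular submodule of the same dimension
  obtain ⟨ρ₂, ρ₃, hp2, U, hU, hUd, hUts⟩ : ∃ ρ₂ ρ₃ : Representation k ↥(Zgrp k) (I27 → k), Pair ρ₂ ρ₃ ∧
      ∃ U : Submodule k (I27 → k), Stb (rp ρ₂ χ) U ∧ finrank k U = finrank k W ∧ ∀ w ∈ U, sh w = 0 := by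
    by_cases hs : ∀ w ∈ W, sh w = 0
    · exact ⟨ρ₀, ρ₁, hp, W, hW, rfl, hs⟩
    · refine ⟨ρ₁, ρ₀, hp.swap, _, stb_shW hp hW, le_antisymm (finrank_shW_le hcr) ?_, (shW_ts (by omega) hcr).1⟩
      by_contra hlt
      have h6 := hmin ρ₁ (pair_left hp.swap) _ (stb_shW hp hW) (by omega)
      apply hs
      intro w hw
      have h7 : sh w ∈ Submodule.span k (sh '' (W : Set (I27 → k))) := Submodule.subset_span ⟨w, hw, rfl⟩
      rw [h6, Submodule.mem_bot] at h7
      exact h7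
  have h6 := finrank_le_six hUts
  have h44 : finrank k W = 4 := by
    have e1 : n < 3 := by
      by_contra hcon
      have e2 : 2 ^ 3 ≤ 2 ^ n := Nat.pow_le_pow_right (by norm_num) (by omega)
      omega
    have e2 : n = 2 := by
      interval_cases n
      · omega
      · omega
      · rfl
    rw [hn, e2]
    norm_num
  obtain ⟨U', hU'd, hU'⟩ := exists_sub_four hper χ hp2 (fun a w hw => hU a w hw) (by rw [hUd, h44]) hUts
  have h7 := hmin ρ₃ (pair_left hp2.swap) U' (fun g w hw => hU' g w hw) (by omega)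
  rw [h7, finrank_bot] at hU'd
  omega

end Cfsg.Agent.R2.H6P2
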